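import Cfsg.Agent.H324.Hall.Small
import Cfsg.Agent.H324.Hall.AltSeven
import Cfsg.Agent.H165.HallAltFinal
import Cfsg.Agent.H497.Basic

/-!
# `PartB` for alternating groups
-/

set_option autoImplicit false
set_option linter.unusedSectionVars false

open Module Cfsg

universe u

namespace Cfsg.Agent.H324.Hall

theorem bigDeg_alt {r : ℕ} (hr : r.Prime) (h7 : 7 ≤ r) : BigDeg ↥(alternatingGroup (Fin r)) (r - 2) := by
  have hlow : H189.AltOddDim.Low.{0, 0} ℂ r (r - 1) := by
    rcases Nat.lt_or_ge r 9 with h9 | h9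
    · obtain rfl : r = 7 := by
        interval_cases r
        · rfl
        · exact absurd hr (by norm_num)
      exact AltSeven.low_seven_six
    · have h1 := H189.AltOddDim.low_odd.{0, 0} (k := ℂ) (by norm_num) 0 r h9
      rwa [if_neg (by rw [Nat.zero_dvd]; omega), Nat.sub_zero] at h1
  intro m σ hσ
  let ρ : ↥(alternatingGroup (Fin r)) →* End ℂ (Fin m → ℂ) :=
    (Matrix.toLinAlgEquiv' : Matrix (Fin m) (Fin m) ℂ ≃ₐ[ℂ] _).toAlgHom.toRingHom.toMonoidHom.comp
      ((Units.coeHom (Matrix (Fin m) (Fin m) ℂ)).comp σ)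
  have h1 := hlow (Fin m → ℂ) ρ (by
    by_contra hcon
    push Not at hcon
    apply hσ
    ext1 g
    apply Units.ext
    exact (Matrix.toLinAlgEquiv' : Matrix (Fin m) (Fin m) ℂ ≃ₐ[ℂ] _).injective ((hcon g).trans (map_one _).symm))
  rw [Module.finrank_fin_fun] at h1
  omega

variable {T : Type u} [Group T] [Finite T] [IsSimpleGroup T] {Y : Subgroup T} {n : ℕ} {S : Type u} [Group S]
  [IsSimpleGroup S] {A : Subgroup (MulAut T)}

theorem Frame.alt (f : Frame T Y n S A)
    (hFT : ∀ (X : Type u) [Group X] [Finite X], Odd (Nat.card X) → Group.IsSolvable X)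
    {m : ℕ} (hm : 5 ≤ m) (e : T ≃* ↥(alternatingGroup (Fin m))) : Goal Y A f.conj_mem := by
  classical
  let M : Subgroup (Equiv.Perm (Fin m)) := (Y.map e.toMonoidHom).map (alternatingGroup (Fin m)).subtype
  have hMmem : ∀ y ∈ Y, ((e y : ↥(alternatingGroup (Fin m))) : Equiv.Perm (Fin m)) ∈ M := fun y hy =>
    ⟨e y, ⟨y, hy, rfl⟩, rfl⟩
  have hMof : ∀ g : ↥(alternatingGroup (Fin m)), (g : Equiv.Perm (Fin m)) ∈ M → e.symm g ∈ Y := by
    rintro g ⟨g', ⟨y, hy, rfl⟩, hg'⟩
    have h1 : e.toMonoidHom y = g := Subtype.ext hg'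
    rw [← h1]
    show e.symm (e y) ∈ Y
    rwa [MulEquiv.symm_apply_apply]
  have hMle : M ≤ alternatingGroup (Fin m) := by
    rintro g ⟨g', -, rfl⟩
    exact g'.2
  have hMcard : Nat.card M = Nat.card Y := by
    show Nat.card ((Y.map e.toMonoidHom).map (alternatingGroup (Fin m)).subtype : Subgroup _) = _
    rw [Subgroup.card_map_of_injective (Subgroup.subtype_injective _), Subgroup.card_map_of_injective e.injective]
  have hMidx : M.relIndex (alternatingGroup (Fin m)) = Y.index := by
    have h1 : M.subgroupOf (alternatingGroup (Fin m)) = Y.map e.toMonoidHom := by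
      ext g
      rw [Subgroup.mem_subgroupOf]
      constructor
      · intro hg
        exact ⟨e.symm g, hMof g hg, e.apply_symm_apply g⟩
      · rintro ⟨y, hy, rfl⟩
        exact hMmem y hy
    show (M.subgroupOf (alternatingGroup (Fin m))).index = Y.index
    rw [h1]
    exact Subgroup.index_map_equiv Y e
  let π : Set ℕ := {p | p ∣ Nat.card Y}
  have hHall : Cfsg.IsPiHallOf π M (alternatingGroup (Fin m)) := by
    refine ⟨hMle, fun p _ hp => by rwa [hMcard] at hp, fun p hp hpπ hpi => ?_⟩
    rw [hMidx] at hpi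
    have h2 := Nat.dvd_gcd hpπ hpi
    rw [f.cop] at h2
    exact hp.one_lt.ne' (Nat.dvd_one.1 h2)
  have h2π : 2 ∈ π := f.two_dvd hFT
  -- every prime in `π` is at most `m`
  have hle : ∀ p : ℕ, p.Prime → p ∈ π → p ≤ m := by
    intro p hp hpπ
    have h3 : p ∣ Nat.card ↥(alternatingGroup (Fin m)) := by
      rw [← Nat.card_congr e.toEquiv]
      exact dvd_trans hpπ (Subgroup.card_subgroup_dvd_card Y)
    have h4 : p ∣ Nat.card (Equiv.Perm (Fin m)) := h3.trans (Subgroup.card_subgroup_dvd_card _)
    rw [Nat.card_eq_fintype_card, Fintype.card_perm, Fintype.card_fin] at h4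
    exact (hp.dvd_factorial).1 h4
  obtain ⟨s, hs, hsπ, h2s⟩ : ∃ s : ℕ, s.Prime ∧ s ∈ π ∧ 2 < s := by
    by_contra hcon
    push Not at hcon
    refine f.not_solvable (H497.isSolvable_of_two_primes Nat.prime_two Nat.prime_three (by norm_num) ?_)
    intro r hr hrY
    have := hcon r hr hrY
    have := hr.two_le
    left; omega
  have hC := H165.HallAlt.main hHall Nat.prime_two hs h2s h2π hsπ (by
    rw [Fintype.card_fin]; exact hle s hs hsπ)
  have hsolv : (∀ r : ℕ, r.Prime → r ∈ π → r = 2 ∨ r = 3) → False := fun h =>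
    f.not_solvable (H497.isSolvable_of_two_primes Nat.prime_two Nat.prime_three (by norm_num) h)
  rcases hC with ⟨h1, -⟩ | ⟨h1, h2, a, ha⟩ | ⟨h1, h2, -⟩ | ⟨h1, h2, -⟩
  · exfalso
    apply f.ne_top
    rw [eq_top_iff]
    intro t _
    have h2 := hMof (e t) (by rw [h1]; exact (e t).2)
    rwa [MulEquiv.symm_apply_apply] at h2
  · rw [Fintype.card_fin] at h1
    have hm7 : 7 ≤ m := by
      by_contra hlt
      have h5 : m = 5 := by
        have h6 : m ≠ 6 := by rintro rfl; revert h1; norm_num
        omega
      subst h5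
      refine hsolv fun r hr hrπ => ?_
      have h3 : r < 5 := by
        have := (h2 r hr (by rw [Fintype.card_fin]; exact hle r hr hrπ)).1 hrπ
        rwa [Fintype.card_fin] at this
      have := hr.two_le
      interval_cases r
      · left; rfl
      · right; rfl
      · exact absurd hr (by norm_num)
    have h6 : m ≠ 6 := by omega
    let Φ : A →* Equiv.Perm (Fin m) :=
      (autAlt m (by omega) h6).toMonoidHom.comp ((MulAut.congr e).toMonoidHom.comp A.subtype)
    have hΦinj : Function.Injective Φ :=
      (autAlt m (by omega) h6).injective.comp ((MulAut.congr e).injective.comp A.subtype_injective)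
    have hΦ : ∀ (α : A) (t : T), ((e (α.1 t) : ↥(alternatingGroup (Fin m))) : Equiv.Perm (Fin m)) =
        Φ α * (e t : ↥(alternatingGroup (Fin m))) * (Φ α)⁻¹ := by
      intro α t
      have h3 := autAlt_apply m (by omega) h6 ((MulAut.congr e) α.1) (e t)
      refine Eq.trans ?_ h3
      congr 1
      show e (α.1 t) = e (α.1 (e.symm (e t)))
      rw [MulEquiv.symm_apply_apply]
    have hfix : ∀ α : A, Φ α a = a := by
      intro α
      by_contra hne
      set σ := Φ α with hσ
      -- a point `c ≠ a` with `σ c = a`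
      have hc : σ (σ⁻¹ a) = a := σ.apply_symm_apply a
      have hca : σ⁻¹ a ≠ a := by
        intro h
        rw [h] at hc
        exact hne hc
      set c := σ⁻¹ a with hcdef
      obtain ⟨x, hx⟩ : ∃ x : Fin m, x ∉ ({a, c} : Finset (Fin m)) := by
        by_contra hcon
        push Not at hcon
        have h3 := Finset.card_le_card (Finset.subset_univ ({a, c} : Finset (Fin m)))
        have h4 : (Finset.univ : Finset (Fin m)) ⊆ {a, c} := fun x _ => hcon x
        have h5 := (Finset.card_le_card h4).trans Finset.card_le_two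
        rw [Finset.card_univ, Fintype.card_fin] at h5
        omega
      obtain ⟨z, hz⟩ : ∃ z : Fin m, z ∉ ({a, c, x} : Finset (Fin m)) := by
        by_contra hcon
        push Not at hcon
        have h4 : (Finset.univ : Finset (Fin m)) ⊆ {a, c, x} := fun x _ => hcon x
        have h5 := (Finset.card_le_card h4).trans Finset.card_le_three
        rw [Finset.card_univ, Fintype.card_fin] at h5
        omega
      simp only [Finset.mem_insert, Finset.mem_singleton, not_or] at hx hz
      obtain ⟨xa, xc⟩ := hx
      obtain ⟨za, zc, zx⟩ := hz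
      let g : Equiv.Perm (Fin m) := Equiv.swap c x * Equiv.swap x z
      have hgalt : g ∈ alternatingGroup (Fin m) := by
        rw [Equiv.Perm.mem_alternatingGroup, Equiv.Perm.sign_mul, Equiv.Perm.sign_swap (Ne.symm xc),
          Equiv.Perm.sign_swap (Ne.symm zx)]
        norm_num
      have hga : g a = a := by
        show Equiv.swap c x (Equiv.swap x z a) = a
        rw [Equiv.swap_apply_of_ne_of_ne (Ne.symm xa) (Ne.symm za),
          Equiv.swap_apply_of_ne_of_ne (Ne.symm hca) (Ne.symm xa)]
      have hgc : g c = x := by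
        show Equiv.swap c x (Equiv.swap x z c) = x
        rw [Equiv.swap_apply_of_ne_of_ne (Ne.symm xc) (Ne.symm zc), Equiv.swap_apply_left]
      have hgM : g ∈ M := (ha g).2 ⟨hgalt, hga⟩
      have hy := hMof ⟨g, hgalt⟩ hgM
      have hy2 := hMmem _ (f.stable α.1 α.2 _ hy)
      rw [hΦ, MulEquiv.apply_symm_apply, ← hσ] at hy2
      have h3 := ((ha _).1 hy2).2
      have h4 : σ (g c) = a := h3
      rw [hgc] at h4
      have h5 : σ x = σ c := h4.trans hc.symm
      exact xc (σ.injective h5)
    let B : A →* Equiv.Perm {x : Fin m // x ≠ a} :=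
      { toFun := fun α => (Φ α).subtypePerm (fun x => by
          constructor
          · intro hx h3
            apply hx
            rw [h3, hfix α]
          · intro hx h3
            apply hx
            apply (Φ α).injective
            rw [h3, hfix α])
        map_one' := by
          ext x
          show ((Φ 1 (x : Fin m) : Fin m) : ℕ) = _
          rw [map_one]; rfl
        map_mul' := fun α β => by
          ext x
          show ((Φ (α * β) (x : Fin m) : Fin m) : ℕ) = _
          rw [map_mul]; rfl }
    have hBinj : ∀ α : A, B α = 1 → α = 1 := by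
      intro α hα
      apply hΦinj
      rw [map_one]
      ext x : 1
      rcases eq_or_ne x a with rfl | hx
      · exact hfix α
      · have h3 := congrArg (fun τ : Equiv.Perm {x : Fin m // x ≠ a} => ((τ ⟨x, hx⟩ : {x : Fin m // x ≠ a}) : Fin m)) hα
        exact h3
    refine f.goal_of_action B ?_ ?_
    · obtain ⟨y, hy, hy1⟩ : ∃ y ∈ Y, y ≠ 1 := by
        by_contra hcon
        push Not at hcon
        exact f.ne_bot ((Subgroup.eq_bot_iff_forall Y).2 hcon)
      refine ⟨y, hy, fun h => hy1 ?_⟩
      have h3 := congrArg Subtype.val (hBinj _ h)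
      apply conj_injective f.nc
      rw [map_one]
      exact h3
    · have h3 : Nat.card {x : Fin m // x ≠ a} = m - 1 := by
        rw [Nat.card_eq_fintype_card, Fintype.card_subtype_compl, Fintype.card_fin, Fintype.card_subtype_eq]
      rw [h3]
      exact ((bigDeg_alt h1 hm7).congr e).mono (by omega)
  · exfalso
    rw [Fintype.card_fin] at h1
    exact hsolv fun r hr hrπ => (h2 r hr (h1 ▸ hle r hr hrπ)).1 hrπ
  · exfalso
    rw [Fintype.card_fin] at h1
    exact hsolv fun r hr hrπ => (h2 r hr (h1 ▸ hle r hr hrπ)).1 hrπ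

end Cfsg.Agent.H324.Hall
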