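import Cfsg.Agent.H324.Hall.Heis
import Cfsg.Agent.TitsThree.KExcBase

/-!
# Heisenberg groups in the Chevalley groups, from the tables
-/

set_option autoImplicit false
set_option linter.unusedSectionVars false
set_option maxRecDepth 100000

open Module Cfsg

universe u

namespace Cfsg.Agent.H324.Hall

open Cfsg.Lie Cfsg.Agent.ChevalleyStructure.Elts Cfsg.Agent.TitsThree.KExcBase
open scoped commutatorElement

section restrict

variable {F K : Type*} [Field F] [Field K] {G : Type*} [Group G]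

theorem Heis.restrict (ι : F →+* K) (B : Subgroup G) {z : K → G} {x y : ℕ → K → G} {c : ℕ → ℤ} {k : ℕ}
    (H : Heis z x y (fun i => ((c i : ℤ) : K)) k) (hz : ∀ t, z (ι t) ∈ B) (hx : ∀ i, ∀ t, x i (ι t) ∈ B)
    (hy : ∀ i, ∀ t, y i (ι t) ∈ B) :
    Heis (F := F) (fun t => (⟨z (ι t), hz t⟩ : B)) (fun i t => ⟨x i (ι t), hx i t⟩) (fun i t => ⟨y i (ι t), hy i t⟩)
      (fun i => ((c i : ℤ) : F)) k where
  eps i hi := by
    intro h
    apply H.eps i hi
    have h1 := congrArg ι h
    rwa [map_intCast, map_zero] at h1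
  zero i hi := Subtype.ext (by
    show x i (ι 0) = 1
    rw [map_zero]; exact H.zero i hi)
  add i hi a b := Subtype.ext (by
    show x i (ι (a + b)) = x i (ι a) * x i (ι b)
    rw [map_add]; exact H.add i hi _ _)
  xx i hi j hj hij a b := Subtype.ext (H.xx i hi j hj hij _ _)
  xy i hi j hj hij a b := Subtype.ext (H.xy i hi j hj hij _ _)
  c i hi a b := Subtype.ext (by
    show x i (ι a) * y i (ι b) = z (ι (((c i : ℤ) : F) * a * b)) * y i (ι b) * x i (ι a)
    rw [map_mul, map_mul, map_intCast]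
    exact H.c i hi _ _)
  zx i hi a b := Subtype.ext (H.zx i hi _ _)
  zy i hi a b := Subtype.ext (H.zy i hi _ _)

end restrict

/-- the root elements of `r`, `s` commute -/
def Nil (D : ChevalleyDatum) (r s : ℕ) : Prop :=
  r < D.nroots ∧ s < D.nroots ∧ s ≠ r ∧ s ≠ D.neg r ∧ D.commTerms r s = []

instance instDecNil (D : ChevalleyDatum) (r s : ℕ) : Decidable (Nil D r s) := by unfold Nil; infer_instance

/-- the commutator of the root elements of `r`, `s` is one root element -/
def One (D : ChevalleyDatum) (r s z : ℕ) (c : ℤ) : Prop :=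
  r < D.nroots ∧ s < D.nroots ∧ s ≠ r ∧ s ≠ D.neg r ∧ D.commTerms r s = [(z, c, 1, 1)]

instance instDecOne (D : ChevalleyDatum) (r s z : ℕ) (c : ℤ) : Decidable (One D r s z c) := by unfold One; infer_instance

/-- the table of a Heisenberg group -/
def Tab (D : ChevalleyDatum) (z : ℕ) (xs ys : List ℕ) (cs : List ℤ) (k : ℕ) : Prop :=
  z < D.nroots ∧
  (∀ i < k, ∀ j < k, i ≠ j → Nil D (xs.getD i 0) (xs.getD j 0)) ∧
  (∀ i < k, ∀ j < k, i ≠ j → Nil D (xs.getD i 0) (ys.getD j 0)) ∧
  (∀ i < k, One D (xs.getD i 0) (ys.getD i 0) z (cs.getD i 0)) ∧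
  (∀ i < k, Nil D z (xs.getD i 0)) ∧
  (∀ i < k, Nil D z (ys.getD i 0))

instance instDecTab (D : ChevalleyDatum) (z : ℕ) (xs ys : List ℕ) (cs : List ℤ) (k : ℕ) : Decidable (Tab D z xs ys cs k) := by
  unfold Tab; infer_instance

section

variable {D : ChevalleyDatum} (hD : InList D) {K : Type u} [Field K]

theorem Nil.comm {r s : ℕ} (h : Nil D r s) (a b : K) : xG hD r a * xG hD s b = xG hD s b * xG hD r a :=
  comm_nil hD h.1 h.2.1 h.2.2.1 h.2.2.2.1 h.2.2.2.2 a b

theorem Tab.heis {z : ℕ} {xs ys : List ℕ} {cs : List ℤ} {k : ℕ} (h : Tab D z xs ys cs k)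
    (hc : ∀ i < k, ((cs.getD i 0 : ℤ) : K) ≠ 0) :
    Heis (F := K) (fun t => xG hD z t) (fun i t => xG hD (xs.getD i 0) t) (fun i t => xG hD (ys.getD i 0) t)
      (fun i => ((cs.getD i 0 : ℤ) : K)) k := by
  obtain ⟨hz, hxx, hxy, hone, hzx, hzy⟩ := h
  refine
    { eps := hc
      zero := fun i _ => xG_zero hD _
      add := fun i _ a b => (xG_add hD _ a b).symm
      xx := fun i hi j hj hij a b => (hxx i hi j hj hij).comm hD a b
      xy := fun i hi j hj hij a b => (hxy i hi j hj hij).comm hD a b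
      c := fun i hi a b => ?_
      zx := fun i hi a b => (hzx i hi).comm hD a b
      zy := fun i hi a b => (hzy i hi).comm hD a b }
  obtain ⟨h1, h2, h3, h4, h5⟩ := hone i hi
  have h6 := comm_one (F := K) hD h1 h2 h3 h4 h5 (fun t u => ((hzx i hi).comm hD u t).symm)
    (fun t u => ((hzy i hi).comm hD u t).symm) a b
  show xG hD (xs.getD i 0) a * xG hD (ys.getD i 0) b =
    xG hD z (((cs.getD i 0 : ℤ) : K) * a * b) * xG hD (ys.getD i 0) b * xG hD (xs.getD i 0) a
  rw [← h6, commutatorElement_def]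
  group

end

theorem tab_g2 : Tab chevG2 11 [6, 8] [10, 9] [1, 3] 2 := by decide +kernel

theorem tab_e6 : Tab chevE6 71 [46, 47, 51, 53] [70, 69, 65, 63] [1, -1, -1, 1] 4 := by decide +kernel

end Cfsg.Agent.H324.Hall
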